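import Cfsg.Agent.Lib.Block.Proj
import Cfsg.Agent.Lib.Block.AbDef
import Cfsg.Agent.Lib.Block.Constr
import Cfsg.Agent.Lib.Block.NormalDef
import Cfsg.Agent.Lib.Modular.Vanish
import Cfsg.Agent.Lib.Sym.Block

/-!
# Blocks whose characters have equal degrees (Okuyama-Tsushima, Malle-Navarro)
-/

set_option autoImplicit false
set_option linter.unusedSectionVars false
set_option linter.dupNamespace false

namespace Cfsg.Lib.Block

open _root_.Cfsg.Lib.Block MonoidAlgebra Cfsg.Lib.Char Cfsg.Lib.Modular Cfsg.Lib.Transfer Subgroup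
  Module

variable {G : Type*} [Group G] [Finite G] {p : ℕ} [hp : Fact p.Prime] {M : Ideal AlgInt}
  [Modular p M] {B : Set (IrrCharacter G)} {D : Subgroup G}

/-- A block all of whose characters have the same degree is a matrix algebra over a commutative
algebra. -/
theorem Cfsg.IsPBlock.exists_idem_of_degree (hB : IsPBlock M B) {m : ℕ}
    (hm : ∀ χ ∈ B, charDegree (χ : G → ℂ) = m) : ∃ (f : SG G M) (n : ℕ) (x z : Fin n → SG G M),
      f * f = f ∧ (∀ χ ∈ B, ev (χ : G → ℂ) (f : ℂ[G]) = 1) ∧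
        ((∑ k, x k * f * z k : SG G M) : ℂ[G]) = fblk B := by
  classical
  have := Fintype.ofFinite G
  obtain ⟨r, d, ρ, f, T, h, hf, hT, hρ, hli⟩ := exists_pims G M
  have hsum := fun ε => h.exists_eq_sum hf hT hρ (evs G M) evs_mul_comm (ε := ε)
  have hm1 : ∀ χ ∈ B, (χ : G → ℂ) 1 = m := fun χ hχ => by rw [χ.2.apply_one_eq, hm χ hχ]
  obtain ⟨χ₀, hχ₀⟩ := hB.nonempty
  have hm0 : (m : ℂ) ≠ 0 := hm1 χ₀ hχ₀ ▸ χ₀.2.apply_one_ne_zero
  choose Φ hΦ using fun (i : Fin r) (χ : IrrCharacter G) =>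
    exists_ev_idem_eq χ.2.isCharacter (congrArg Subtype.val (hf i))
  replace hΦ : ∀ i χ, evs G M (f i) χ = Φ i χ := hΦ
  -- the sum of the characters of `B`
  obtain ⟨a, ha⟩ : ∃ a : Fin r → ℤ,
      ∑ i, a i • evs G M (f i) = fun χ => if χ ∈ B then (1 : ℂ) else 0 := by
    have h1 := inner_mem_of_vanish (M := M) (θ := ∑ χ with χ ∈ B, (χ : G → ℂ))
      (isGeneralizedCharacter_sum _ _ fun χ _ => χ.2.isGeneralizedCharacter) (fun g hg => by
        have := sum_mul_apply_eq_zero hB.fblk_mem_SG (not_dvd_orderOf_one hp.out) hg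
        rw [Finset.sum_congr rfl fun χ hχ => by rw [hm1 χ (Finset.mem_filter.1 hχ).2],
          ← Finset.sum_mul] at this
        rw [Finset.sum_apply, (mul_eq_zero.1 this).resolve_right hm0])
      (Submodule.span ℤ (Set.range fun i => evs G M (f i))).toAddSubgroup fun ε hε => by
        obtain ⟨n, hn, -⟩ := hsum ε hε
        rw [hn]
        exact sum_mem fun i _ => nsmul_mem (Submodule.subset_span (Set.mem_range_self i)) _
    obtain ⟨a, ha⟩ := (Submodule.mem_span_range_iff_exists_fun ℤ).1 h1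
    refine ⟨a, ha.trans (funext fun χ => ?_)⟩
    simp [classInner_sum_right, irr_inner_eq_ite]
  let e : SG G M := ⟨_, hB.fblk_mem_SG⟩
  have ee : e * e = e := Subtype.ext (fblk_idem B)
  have key : ∀ n : Fin r → ℕ, evs G M e = ∑ i, n i • evs G M (f i) → ∀ i, (n i : ℤ) = m * a i := by
    intro n hn i
    have h1 : evs G M e = ∑ i, ((m : ℂ) * a i) • evs G M (f i) := by
      simp only [mul_smul, ← Finset.smul_sum, Int.cast_smul_eq_zsmul, ha]
      funext χ
      change ev _ (fblk B) = m * if χ ∈ B then 1 else 0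
      rw [ev_eq_mul_omega χ.2.apply_one_ne_zero, omega_fblk]
      split_ifs with hχ
      · rw [hm1 χ hχ]
      · simp
    have h2 := Fintype.linearIndependent_iffₛ.1 hli (fun i => n i) (fun i => m * a i)
      (by simp only [Nat.cast_smul_eq_nsmul]; rw [← hn, h1]) i
    exact_mod_cast h2
  obtain ⟨n₀, h0, h0'⟩ := hsum e ee
  have hm0' : (0 : ℤ) < m := by exact_mod_cast Nat.pos_of_ne_zero (Nat.cast_ne_zero.1 hm0)
  have ha0 : ∀ i, 0 ≤ a i := fun i => nonneg_of_mul_nonneg_right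
    (key n₀ h0 i ▸ Int.natCast_nonneg _) hm0'
  obtain ⟨j, hj⟩ : ∃ j, a j ≠ 0 := by
    by_contra hc
    push Not at hc
    simpa [hc, hχ₀] using congrFun ha χ₀
  have hj1 : ρ e j = 1 := h.eq_one_of_ne_zero (fblk_mem_fix B) ee fun e0 =>
    hj (by simpa [h0' j e0, Nat.cast_ne_zero.1 hm0] using key n₀ h0 j)
  have hle : ∀ χ, a j * Φ j χ ≤ if χ ∈ B then 1 else 0 := fun χ => by
    have h1 : ∑ i, a i * Φ i χ = if χ ∈ B then 1 else 0 := by
      have := congrFun ha χ
      simp only [Finset.sum_apply, Pi.smul_apply, hΦ] at this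
      simp only [zsmul_eq_mul] at this
      exact_mod_cast this
    rw [← h1]
    exact Finset.single_le_sum (f := fun i => a i * Φ i χ)
      (fun i _ => mul_nonneg (ha0 i) (Int.natCast_nonneg _)) (Finset.mem_univ j)
  have hU : ∀ χ, Φ j χ ≠ 0 → χ ∈ B ∧ a j = 1 ∧ Φ j χ = 1 := fun χ hχ => by
    have h1 := hle χ
    have h2 := lt_of_le_of_ne (ha0 j) hj.symm
    have h3 : (0 : ℤ) < Φ j χ := by exact_mod_cast Nat.pos_of_ne_zero hχ
    split_ifs at h1 with h4
    · refine ⟨h4, by nlinarith, ?_⟩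
      have : (Φ j χ : ℤ) = 1 := by nlinarith
      exact_mod_cast this
    · nlinarith
  -- the idempotent lifting the `j`-th central idempotent
  obtain ⟨ε, e1, e2, e3, e4⟩ := h.exists_le ee (T := Pi.single j 1)
    (by rw [← Pi.single_mul, mul_one]) (by rw [← Pi.single_mul_right, hj1, mul_one])
    (by rw [← Pi.single_mul_left, hj1, mul_one])
  obtain ⟨n₁, h1, h1'⟩ := hsum ε e1
  obtain ⟨n₂, h2, h2'⟩ := hsum (e - ε) (by rw [sub_mul, mul_sub, mul_sub, ee, e1, e3, e4]; abel)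
  have h3 := key (n₁ + n₂) (by
    simp only [Pi.add_apply, add_smul, Finset.sum_add_distrib, ← h1, ← h2, map_sub,
      add_sub_cancel]) j
  rw [Pi.add_apply, h2' j (by simp [e2, hj1]), add_zero] at h3
  rw [Finset.sum_eq_single j (fun i _ hi => by rw [h1' i (by simp [e2, hi]), zero_smul])
    (by simp)] at h1
  obtain ⟨ψ, hψ⟩ : ∃ ψ, Φ j ψ ≠ 0 := by
    by_contra hc
    push Not at hc
    exact hli.ne_zero j (funext fun χ => by simp [hΦ, hc])
  have h4 : ∀ χ : IrrCharacter G, ev (χ : G → ℂ) (ε : ℂ[G]) = m * Φ j χ := fun χ => by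
    rw [(hU ψ hψ).2.1, mul_one, Nat.cast_inj] at h3
    exact (congrFun h1 χ).trans (by simp [hΦ, h3])
  have h5 : (ε : ℂ[G]) = fblk {χ | Φ j χ ≠ 0} := eq_fblk_of_ev (congrArg Subtype.val e1)
    (fun χ hχ => by rw [h4, (hU χ hχ).2.2, hm1 χ (hU χ hχ).1, Nat.cast_one, mul_one])
    fun χ hχ => by rw [h4, not_not.1 hχ, Nat.cast_zero, mul_zero]
  have h6 : {χ | Φ j χ ≠ 0} = B := Set.Subset.antisymm (fun χ hχ => (hU χ hχ).1)
    (hB.eq_blockOf (hU ψ hψ).1 ▸ blockOf_subset_of_fblk_mem (h5 ▸ ε.2) hψ)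
  obtain rfl : ε = e := Subtype.ext (h5.trans (congrArg fblk h6))
  obtain ⟨n, X, Y, hXY⟩ := (hT j).exists_sum
  choose x hx using fun k => h.surj (Pi.single j (X k))
  choose y hy using fun k => h.surj (Pi.single j (Y k))
  obtain ⟨u, hu⟩ := h.unit (e * ∑ k, x k * f j * y k + (1 - e)) (by
    simp only [map_add, map_mul, map_sub, map_sum, hx, hy, hρ, e2, ← Pi.single_mul, map_one]
    funext i
    by_cases hi : i = j
    · subst hi; simp [hXY]
    · simp [hi])
  refine ⟨f j, n, fun k => e * x k, fun k => y k * ↑u⁻¹, hf j, fun χ hχ => ?_, ?_⟩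
  · exact (hΦ j χ).trans (by rw [(hU χ (h6 ▸ hχ : χ ∈ {χ | Φ j χ ≠ 0})).2.2, Nat.cast_one])
  · refine congrArg Subtype.val (?_ : _ = e)
    have : e * u = e * ∑ k, x k * f j * y k := by
      rw [hu, mul_add, ← mul_assoc, ee, mul_sub, ee, mul_one, sub_self, add_zero]
    conv_rhs => rw [← u.mul_inv_cancel_right e, this, Finset.mul_sum, Finset.sum_mul]
    simp only [mul_assoc]

theorem Cfsg.IsPBlock.cls_mul_eblk_eq_zero (hB : IsPBlock M B) {m : ℕ}
    (hm : ∀ χ ∈ B, charDegree (χ : G → ℂ) = m) {g : G}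
    (hg : m.factorization p < (centralizer ({g} : Set G)).index.factorization p) :
    cls (Res M) g * eblk M B = 0 := by
  obtain ⟨f, n, x, z, ff, hf, hs⟩ := hB.exists_idem_of_degree hm
  obtain ⟨χ₀, hχ₀⟩ := hB.nonempty
  have hm0 : m ≠ 0 := hm χ₀ hχ₀ ▸ charDegree_ne_zero χ₀.2
  replace ff : (f : ℂ[G]) * f = f := congrArg Subtype.val ff
  simp only [AddSubmonoidClass.coe_finsetSum, MulMemClass.coe_mul] at hs
  have key : ∀ χ ∈ B, ∀ c, ∑ k, ev (χ : G → ℂ) ((f : ℂ[G]) * (z k * c * x k)) = ev χ c :=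
    fun χ hχ c => by
      rw [← ev_fblk_mul_of_mem hχ c, ← hs, Finset.sum_mul, map_sum]
      refine Finset.sum_congr rfl fun k _ => ?_
      rw [← mul_assoc, ev_mul_comm χ.2.isClassFunction]; simp only [mul_assoc]
  let w : ℂ[G] := ∑ k, ∑ l, x k * (f * (z l * of ℂ G g * x l) * f * z k)
  have hw : w ∈ SG G M := sum_mem fun k _ => sum_mem fun l _ => mul_mem (x k).2 (mul_mem
    (mul_mem (mul_mem f.2 (mul_mem (mul_mem (z l).2 (of_mem_SG g)) (x l).2)) f.2) (z k).2)
  have h1 : fblk B * cls ℂ g = (((centralizer ({g} : Set G)).index : ℂ) / m) • (fblk B * w) :=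
    eq_of_ev_mul_of fun χ y => by
      rw [smul_mul_assoc, map_smul, mul_assoc, mul_assoc]
      by_cases hχ : χ ∈ B
      · have e : ev χ (w * of ℂ G y) = (χ : G → ℂ) g * (χ : G → ℂ) y := by
          rw [← ev_of (χ : G → ℂ) g, ← ev_of (χ : G → ℂ) y, ← key χ hχ (of ℂ G g),
            ← key χ hχ (of ℂ G y), mul_comm, Finset.sum_mul_sum, Finset.sum_mul, map_sum]
          refine Finset.sum_congr rfl fun k _ => ?_
          rw [Finset.sum_mul, map_sum]
          refine Finset.sum_congr rfl fun l _ => ?_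
          rw [mul_comm, ← ev_idem_mul_mul χ.2.isCharacter ff (hf χ hχ), mul_assoc,
            ev_mul_comm χ.2.isClassFunction]
          simp only [mul_assoc]
        rw [ev_fblk_mul_of_mem hχ, ev_fblk_mul_of_mem hχ, e, ev_mul_central χ.2 (cls_mem_fix g),
          omega_apply, ev_cls χ.2.isClassFunction, ev_of, χ.2.apply_one_eq, hm χ hχ, smul_eq_mul]
        ring
      · rw [ev_fblk_mul_of_notMem hχ, ev_fblk_mul_of_notMem hχ, smul_zero]
  have h2 := congrArg (redA M) h1
  rw [redA_mul hB.fblk_mem_SG (cls_mem_SG g), redA_cls, redA_smul (natCast_div_mem hm0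
    (.inl hg.le)) (mul_mem hB.fblk_mem_SG hw), red_natCast_div_eq_zero hm0 hg, zero_smul] at h2
  rw [(commute_of_fix_top (eblk_mem_fix B) _).eq]; exact h2

theorem Cfsg.IsPBlock.eq_zero_of_br_of_degree (hB : IsPBlock M B) (hD : IsDefectGroup p M B D)
    {m : ℕ} (hm : ∀ χ ∈ B, charDegree (χ : G → ℂ) = m) {w : (Res M)[G]}
    (hw : w ∈ fix (Res M) ⊤) (he : w * eblk M B = w) (h0 : br D w = 0) : w = 0 := by
  have := Fintype.ofFinite (ConjClasses G)
  obtain ⟨χ, hχ, hh⟩ := exists_height_zero p hB.nonempty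
  rw [hB.height_zero_iff_index hD hχ, hm χ hχ] at hh
  rw [← he, eq_sum_cls hw, Finset.sum_mul]
  refine Finset.sum_eq_zero fun C _ => ?_
  generalize crep C = g
  by_cases hg : w.coeff g = 0
  · rw [hg, zero_smul, zero_mul]
  rw [smul_mul_assoc, hB.cls_mul_eblk_eq_zero hm, smul_zero]
  obtain ⟨S, -, h1, h2, h3⟩ := exists_sylowIn_ge (p := p) (IsPGroup.of_bot (G := G))
    (bot_le : ⊥ ≤ centralizer ({g} : Set G))
  have h4 : br S w ≠ 0 := Block.br_ne_zero_iff.2 ⟨g, le_centralizer_singleton_iff.1 h1, hg⟩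
  rw [← he, br_mul h2 (mem_fix_of_top hw) (eblk_mem_fix' B S)] at h4
  obtain ⟨x, hx⟩ := (hB.br_ne_zero_iff hD h2).1 (right_ne_zero_of_mul h4)
  have h5 : Nat.card S < Nat.card D := by
    rw [← card_conj x S]
    refine lt_of_le_of_ne (card_le_of_le hx) fun e => ?_
    obtain rfl := eq_of_le_of_card_ge hx e.ge
    rw [← hw x trivial, ← cj_br', cj_eq_zero_iff] at h0
    exact Block.br_ne_zero_iff.2 ⟨g, le_centralizer_singleton_iff.1 h1, hg⟩ h0
  rw [card_eq_pow_of_not_dvd_relIndex h1 h2 h3, hB.card_defectGroup hD,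
    Nat.pow_lt_pow_iff_right hp.out.one_lt, hB.blockDefect_eq_factorization hD] at h5
  have h6 := factorization_card_eq_add (p := p) D
  have h7 := factorization_card_eq_add (p := p) (centralizer ({g} : Set G))
  omega

omit hp in
theorem finrank_center_le_of_mem_SG (hB : fblk B ∈ SG G M) : finrank (Res M)
    ↥((Subalgebra.center (Res M) (Res M)[G]).toSubmodule ⊓ Sym.cor (Res M) 1 (eblk M B)) ≤
    Nat.card B := by
  classical
  have := Fintype.ofFinite B
  refine (Sym.finrank_le_of_lift (W := Submodule.span ℂ (Set.range fun χ : B => fblk {χ.1}))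
    fun u hu => ?_).trans ((finrank_range_le_card _).trans_eq Nat.card_eq_fintype_card.symm)
  have h1 := liftA_mem_fix (mem_fix_top_iff_mem_center.2 hu.1)
  refine ⟨liftA M u * fblk B, (Submodule.mem_span_range_iff_exists_fun ℂ).2
    ⟨fun χ => omega χ.1 (liftA M u), eq_of_omega_eq (sum_mem fun χ _ => Subalgebra.smul_mem _
      (fblk_mem_fix _) _) (mul_mem h1 (fblk_mem_fix B)) fun ψ => ?_⟩,
    mul_mem (liftA_mem_SG u) hB, by rw [redA_mul (liftA_mem_SG u) hB, redA_liftA]; exact hu.2.2⟩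
  rw [omega_mul ψ.2 h1, map_sum]
  simp only [map_smul, omega_fblk, Set.mem_singleton_iff, smul_eq_mul, mul_ite, mul_one, mul_zero]
  split_ifs with h
  · rw [Finset.sum_eq_single ⟨ψ, h⟩ (fun χ _ hχ => if_neg fun h' => hχ (Subtype.ext h'.symm))
      (by simp), if_pos rfl]
  · exact Finset.sum_eq_zero fun χ _ => if_neg fun h' : ψ = χ => h (h' ▸ χ.2)

omit hp in
theorem card_le_finrank_center (hB : fblk B ∈ SG G M) : Nat.card B ≤ finrank (Res M)
    ↥((Subalgebra.center (Res M) (Res M)[G]).toSubmodule ⊓ Sym.cor (Res M) 1 (eblk M B)) := by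
  classical
  have := Fintype.ofFinite (ConjClasses G)
  have h1 := finrank_center_le_of_mem_SG (B := Bᶜ) (fblk_compl B ▸ sub_mem (one_mem _) hB)
  have ee : eblk M B * eblk M B = eblk M B := by rw [eblk_mul_eblk hB hB, Set.inter_self]
  have h2 : LinearIndependent (Res M) fun C : ConjClasses G => cls (Res M) (crep C) :=
    Fintype.linearIndependent_iff.2 fun c hc C => by
      simpa [-isConj_iff, coeff_sum', coeff_smul', coeff_cls, isConj_crep_iff, mk_crep,
        coeff_zero'] using congrArg (fun a => a.coeff (crep C)) hc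
  have h3 := (Submodule.finrank_mono ((Submodule.span_le
    (s := Set.range fun C : ConjClasses G => cls (Res M) (crep C))).2 ?_)).trans
    (Submodule.finrank_add_le_finrank_add_finrank
    ((Subalgebra.center (Res M) (Res M)[G]).toSubmodule ⊓ Sym.cor (Res M) 1 (eblk M B))
    ((Subalgebra.center (Res M) (Res M)[G]).toSubmodule ⊓ Sym.cor (Res M) 1 (eblk M Bᶜ)))
  · rw [finrank_span_eq_card h2, ← Nat.card_eq_fintype_card, ← card_irr_eq_card_conjClasses,
      ← Set.ncard_add_ncard_compl B, ← Nat.card_coe_set_eq, ← Nat.card_coe_set_eq] at h3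
    omega
  · rintro _ ⟨C, rfl⟩
    have hc := mem_fix_top_iff_mem_center.1 (cls_mem_fix (R := Res M) (crep C))
    refine Submodule.mem_sup.2 ⟨_ * eblk M B, ⟨Subalgebra.mul_mem _ hc (mem_fix_top_iff_mem_center.1
      (eblk_mem_fix _)), one_mul _, by rw [mul_assoc, ee]⟩, _ * eblk M Bᶜ, ⟨Subalgebra.mul_mem _ hc
      (mem_fix_top_iff_mem_center.1 (eblk_mem_fix _)), one_mul _, ?_⟩, ?_⟩
    · rw [mul_assoc, eblk_compl hB, sub_mul, one_mul, mul_sub (eblk M B), ee, mul_one, sub_self,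
        sub_zero]
    · rw [← mul_add, eblk_compl hB, add_sub_cancel, mul_one]

theorem Cfsg.IsPBlock.card_le_of_degree (hB : IsPBlock M B) {m : ℕ}
    (hm : ∀ χ ∈ B, charDegree (χ : G → ℂ) = m) : p ^ blockDefect p B ≤ Nat.card B := by
  classical
  have := Fintype.ofFinite G
  obtain ⟨χ, hχ, hh⟩ := exists_height_zero p hB.nonempty
  have hm0 : m ≠ 0 := hm χ hχ ▸ charDegree_ne_zero χ.2
  have h0 : Nat.card B ≠ 0 := have := hB.nonempty.to_subtype; Nat.card_pos.ne'
  have h1 := factorization_sum_degree_sq hB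
  have h2 := factorization_degree_add_defect (p := p) hχ
  rw [Finset.sum_congr rfl fun χ hχ => by rw [hm χ (Finset.mem_filter.1 hχ).2], Finset.sum_const,
    smul_eq_mul, ← Fintype.card_subtype, ← Nat.card_eq_fintype_card,
    Nat.factorization_mul h0 (pow_ne_zero _ hm0), Nat.factorization_pow, Finsupp.add_apply,
    Finsupp.smul_apply, smul_eq_mul] at h1
  rw [hm χ hχ] at h2
  exact Nat.le_of_dvd (Nat.pos_of_ne_zero h0) ((hp.out.pow_dvd_iff_le_factorization h0).2 (by omega))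

/-- A block with abelian defect group all of whose characters have the same degree is
nilpotent. -/
theorem Cfsg.IsPBlock.isNilIn_of_degree (hB : IsPBlock M B) (hD : IsDefectGroup p M B D)
    (hab : D ≤ centralizer (D : Set G)) {m : ℕ} (hm : ∀ χ ∈ B, charDegree (χ : G → ℂ) = m) :
    IsNilIn p M ⊤ (eblk M B) := by
  obtain ⟨e, he⟩ := hB.isBlkIdem_top.exists_isMaxPair (hB.isDefectGroup_iff_isDefIn_top.1 hD)
  have h1 := he.centralizer Sub.refl hab
  have h2 := (h1.isNilIn_iff_of_comm hab).2 (inf_le_left.trans (inf_le_left.trans inf_le_right))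
  rw [top_inf_eq] at h1 h2
  obtain ⟨c, hc, rfl⟩ := h1.blk
  have h3 := Sym.card_le_of_rank_one hc (hc.blockRank_eq_one_of_isNilIn h2)
  rw [← hc.card_of_isDefIn h1.isDefIn, hB.card_defectGroup hD] at h3
  have h4 := (((finrank_center_le_of_mem_SG hc.fblk_mem_SG).trans h3).trans
    (hB.card_le_of_degree hm)).trans (card_le_finrank_center hB.fblk_mem_SG)
  let L := LinearMap.mulRight (Res M) (eblk M c) ∘ₗ res (centralizer (D : Set G)).subtype
  have hL : ∀ w, emb (centralizer (D : Set G)).subtype (L w) = br D w * ebl _ M c := fun w => by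
    simp only [L, LinearMap.comp_apply, LinearMap.mulRight_apply, map_mul, emb_res_subtype]; rfl
  let L' := L.restrict (p := (Subalgebra.center (Res M) (Res M)[G]).toSubmodule ⊓
    Sym.cor (Res M) 1 (eblk M B)) (q := (Subalgebra.center (Res M) _).toSubmodule ⊓
    Sym.cor (Res M) 1 (eblk M c)) fun w hw => ⟨mem_fix_top_iff_mem_center.1 (mul_mem
      (res_subtype_mem_fix_top _ (mem_fix_of_top (mem_fix_top_iff_mem_center.2 hw.1)))
      (eblk_mem_fix c)), one_mul _, by
        simp only [L, LinearMap.comp_apply, LinearMap.mulRight_apply, mul_assoc, hc.eblk_idem]⟩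
  have hi : Function.Injective L' := (injective_iff_map_eq_zero _).2 fun w h0 => by
    have hw := mem_fix_top_iff_mem_center.2 w.2.1
    have h5 : br D w.1 * ebl _ M c = 0 := by
      rw [← hL, show L w = 0 from congrArg Subtype.val h0, map_zero]
    refine Subtype.ext (hB.eq_zero_of_br_of_degree hD hm hw w.2.2.2 ?_)
    by_contra h6
    rw [← w.2.2.2, br_mul hD.isPGroup (mem_fix_of_top hw) (eblk_mem_fix' B D)] at h6
    obtain ⟨e', h7, h8, h9⟩ := exists_isBlkIdem_mul_ne_zero (br_mem_cen_centralizer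
      (eblk_mem_fix' B _)) (br_idem hD.isPGroup (eblk_mem_fix' B D) hB.eblk_idem) h6
    obtain ⟨x, -, e1, e2⟩ := he.exists_conj_eq ⟨he.blk, ⟨le_top, hD.isPGroup,
      by rwa [top_inf_eq], h8⟩, he.isDefIn⟩
    exact h9 (cj_eq_zero_iff.1 (by rw [map_mul, cj_br', e1, e2, hw x trivial, h5]))
  have hs := (LinearMap.injective_iff_surjective_of_finrank_eq_finrank
    (le_antisymm (LinearMap.finrank_le_finrank_of_injective hi) h4)).1 hi
  refine (he.isNilIn_iff_of_comm hab).2 fun t ht => mem_centralizer_iff.2 fun u hu => ?_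
  have hu' : of (Res M) _ (⟨u, hab hu⟩ : centralizer (D : Set G)) ∈ fix (Res M) ⊤ :=
    fun y _ => by
      rw [of_apply, cj_single]
      exact congrArg (single · 1) (Subtype.ext (mul_inv_eq_iff_eq_mul.2 (y.2 u hu).symm))
  obtain ⟨w, hw⟩ := hs ⟨_ * eblk M c, mem_fix_top_iff_mem_center.1 (mul_mem hu' (eblk_mem_fix c)),
    one_mul _, by rw [mul_assoc, hc.eblk_idem]⟩
  have h5 : br D w.1 * ebl _ M c = of (Res M) G u * ebl _ M c := by
    rw [← hL, show L w = _ from congrArg Subtype.val hw, map_mul, emb_of]; rfl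
  have h6 := congrArg (cj t) h5
  rw [map_mul, map_mul, show cj t (ebl _ M c) = _ from ht.2, br_mem_fix le_rfl (mem_fix_of_top
    (mem_fix_top_iff_mem_center.2 w.2.1)) t ht.1.2, h5, of_apply, cj_single] at h6
  obtain ⟨x, hx⟩ := ne_zero_iff_coeff.1 hc.ebl_ne_zero
  have h7 := congrArg (fun a => a.coeff (u * x)) h6
  simp only [← of_apply, coeff_of_mul] at h7
  rw [inv_mul_cancel_left, ← mul_assoc] at h7
  have hv : (t * u * t⁻¹)⁻¹ * u ∈ D :=
    mul_mem (inv_mem ((mem_normalizer_iff.1 ht.1.2 u).1 hu)) hu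
  have hr := fun y (h : (ebl _ M c).coeff y ≠ 0) => not_dvd_of_coeff_cen (ebl_mem_cen c) hc.ebl_idem h
  have hcm : Commute ((t * u * t⁻¹)⁻¹ * u) x :=
    mem_of_coeff_ne_zero (ebl_mem_cen c).2 hx _ hv
  have h8 : (t * u * t⁻¹)⁻¹ * u = 1 := by
    by_contra h
    have h9 := (hcm.mul_left (Commute.refl x)).inv_right.orderOf_mul_dvd_mul_orderOf
    rw [mul_inv_cancel_right, orderOf_inv] at h9
    exact (hp.out.dvd_mul.1 ((dvd_orderOf_of_pElt (pElt_of_mem hp.out hD.isPGroup hv) h).trans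
      h9)).elim (hr _ (h7 ▸ hx)) (hr _ hx)
  exact (mul_inv_eq_iff_eq_mul.1 (inv_mul_eq_one.1 h8)).symm

section Normal
variable {a e : (Res M)[G]} [D.Normal]

/-- Nilpotency criterion for blocks with a normal defect group. -/
theorem IsMaxPair.isNilIn_of_normal (hm : IsMaxPair p M ⊤ a D e)
    (h : ∀ t ∈ stab e, ¬ p ∣ orderOf t → t ∈ Subgroup.centralizer (D : Set G)) :
    IsNilIn p M ⊤ a := hm.isNilIn_iff.2 fun Q f hf x _ h1 h2 h3 => by
  let H := D ⊔ Subgroup.centralizer (Q : Set G)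
  have e1 : ⊤ ⊓ Subgroup.centralizer (Q : Set G) = H ⊓ Subgroup.centralizer (Q : Set G) := by
    rw [top_inf_eq, inf_eq_right.2 le_sup_right]
  have hDH : D ≤ normalizer (H : Set G) := le_sup_left.trans le_normalizer
  have h4 : Sub p M H Q f D e := hf.of_eq hDH e1
  have h5 : IsPair p M H D e := hm.isPair.of_eq hDH (inf_centralizer_eq_of_le e1 hf.le)
  obtain ⟨b, hb, h6⟩ := h5.exists_isPairOf le_sup_left
  have h7 := h6.of_sub h4 hb.mem_cen hb.idem
  have hx : x ⋆ H = H := by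
    rw [conj_sup, conj_eq_self_of_normal, conj_centralizer, conj_eq_self_iff.2 h1]
  have h8 := h7.conj hx
  rw [conj_eq_self_iff.2 h1, show cj x f = f from h2] at h8
  obtain ⟨c, hc, -, h9⟩ := IsMaxPair.frattini ⟨hb, h6, (h6.isDefIn_iff hb).2
    (hm.isDefIn_stab.mono (le_inf (le_inf le_sup_left le_normalizer) (hm.isDefIn_stab.le.trans
      inf_le_right)) (inf_le_inf_right _ (inf_le_inf_right _ le_top)))⟩
    (conj_eq_self_iff.1 hx) (h8.unique h7 (hb.cj hx) hb)
  have h10 : c * x ∈ H := by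
    rw [← pPart_mul_regPart p (c * x)]
    refine mul_mem (sup_le_sup_left (inf_le_right.trans (centralizer_le hf.le)) D
      (hm.pElt_mem_sup ⟨⟨trivial, le_normalizer_top trivial⟩, pPart_mem p h9⟩
        (pElt_pPart hp.out _))) (mem_sup_right (centralizer_le hf.le
          (h _ (regPart_mem p h9) (not_dvd_orderOf_regPart hp.out _))))
  obtain ⟨u, hu, y, hy, rfl⟩ := mem_sup_of_normal_left.1 ((mul_mem_cancel_left hc).1 h10)
  refine mem_centralizer_of_regular hp.out h1 h3 (pElt_of_mem hp.out hm.pgrp hu) fun z hz => ?_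
  conv_rhs => rw [← Fusion.conj_eq_of_mem_centralizer hy hz]
  group

/-- A block with normal defect group whose characters of height zero have the same degree is
nilpotent. -/
theorem Cfsg.IsPBlock.isNilIn_of_degree_of_normal (hB : IsPBlock M B)
    (hD : IsDefectGroup p M B D) {m : ℕ}
    (hm : ∀ χ ∈ B, blockHeight p B (χ : G → ℂ) = 0 → charDegree (χ : G → ℂ) = m) :
    IsNilIn p M ⊤ (eblk M B) := by
  let φ := QuotientGroup.mk' ⁅D, D⁆
  have hφ : Function.Surjective φ := QuotientGroup.mk'_surjective _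
  have hker : φ.ker = ⁅D, D⁆ := QuotientGroup.ker_mk' _
  have hkD : φ.ker ≤ D := hker.le.trans (commutator_le_left D D)
  have hk : IsPGroup p φ.ker := hD.isPGroup.to_le hkD
  have hc : ∀ x, ¬ p ∣ orderOf x → φ x ∈ centralizer (D.map φ : Set _) →
      x ∈ centralizer (D : Set G) := fun x hx h =>
    mem_centralizer_of_map_mem hD.isPGroup hker.le hx (le_normalizer_top trivial) h
  have hA := hB.preimage_infl_of_normal hφ hk hD.isPGroup fun x hx h =>
    centralizer_le hkD (hc x hx h)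
  have hE := hA.isDefectGroup_iff_isDefIn_top.2 (hB.isDefIn_map hφ hk hD)
  have hn : (D.map φ).Normal := Normal.map inferInstance φ hφ
  have hab : ∀ a ∈ D.map φ, ∀ c ∈ D.map φ, a * c = c * a := by
    rintro _ ⟨a, ha, rfl⟩ _ ⟨c, hc, rfl⟩
    rw [← commutatorElement_eq_one_iff_mul_comm, ← map_commutatorElement, ← MonoidHom.mem_ker, hker]
    exact commutator_mem_commutator ha hc
  have h1 := hA.isNilIn_of_degree hE (fun a ha c hc => hab c hc a ha) (m := m) fun χ hχ => by
    rw [← charDegree_infl hφ]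
    refine hm _ hχ ((hB.height_zero_iff_index hD hχ).2 ?_)
    rw [charDegree_infl, (hA.height_zero_iff_index hE hχ).1
      ((hA.height_zero_iff_comm_of_normal hE).1 hab χ hχ), index_map_eq _ hφ hkD]
  obtain ⟨e, he⟩ := hB.isBlkIdem_top.exists_isMaxPair (hB.isDefectGroup_iff_isDefIn_top.1 hD)
  refine he.isNilIn_of_normal fun t ht ht' => hc t ht' ?_
  have h2 := he.pair.blk.emb_of_pGroup hk fun x hx _ => centralizer_le hkD hx.2
  have h3 : eblk M (infl φ hφ ⁻¹' B) * emb φ e = emb φ e := by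
    rw [← emb_eblk hφ hB.fblk_mem_SG, ← map_mul, ← hB.br_eblk_of_normal hD.isPGroup, he.pair.mul]
  obtain ⟨g, h4, h5, h6⟩ := exists_isBlkIdem_mul_ne_zero (br_mem_cen_centralizer
    (P := D.map φ) (eblk_mem_fix' (infl φ hφ ⁻¹' B) _)) (br_idem hE.isPGroup (eblk_mem_fix' _ _)
      hA.eblk_idem) (c := emb φ e) (by
        rw [hA.br_eblk_of_normal hE.isPGroup, (commute_of_fix_top (eblk_mem_fix _) _).eq, h3]
        exact h2.ne_zero)
  have h7 : g ∈ cen (Res M) ((⊤ ⊓ centralizer (D : Set G)).map φ) := by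
    refine ⟨fix_anti ?_ h4.mem_cen.1, fun y hy => by_contra fun h => hy ?_⟩
    · rintro _ ⟨x, hx, rfl⟩ _ ⟨d, hd, rfl⟩
      rw [← map_mul, ← map_mul, hx.2 d hd]
    · obtain ⟨x, rfl⟩ := hφ y
      have h8 := (map_regPart hp.out φ x).trans
        (regPart_of_not_dvd hp.out (not_dvd_of_coeff_cen h4.mem_cen h4.idem h))
      exact ⟨_, ⟨trivial, hc _ (not_dvd_orderOf_regPart hp.out x)
        (h8 ▸ mem_of_coeff_ne_zero h4.mem_cen.2 h)⟩, h8⟩
  have h8 := h2.mul_eq_of_ne_zero h7 h4.idem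
    ((commute_of_mem_cen h2.mem_cen h7).eq ▸ h6)
  have h9 := congrArg (cj (φ t)) h8
  rw [map_mul, ← emb_cj, show cj t e = e from ht] at h9
  refine h1 _ g ⟨le_top, hE.isPGroup, by rwa [top_inf_eq], h5⟩ _ trivial (le_normalizer_top trivial)
    ((h4.cj (conj_eq_self_of_normal _ _)).eq_of_mul_ne_zero h4 fun h => h2.ne_zero ?_)
    (not_dvd_orderOf_map φ ht')
  rw [← h9, ← h8, ← mul_assoc, h, zero_mul]

end Normal

theorem Cfsg.IsPBlock.exists_degree_of_nil (hB : IsPBlock M B) (hn : IsNilIn p M ⊤ (eblk M B)) :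
    ∃ m, ∀ χ ∈ B, blockHeight p B (χ : G → ℂ) = 0 → charDegree (χ : G → ℂ) = m := by
  have := Fintype.ofFinite G
  obtain ⟨P, hP⟩ := hB.exists_isDefectGroup
  obtain ⟨ω₀, hm, -⟩ := Prs.exists_isMax hB hP
  have := Fintype.ofFinite ω₀.grp
  obtain ⟨χ, hχ, h0⟩ := exists_height_zero p hB.nonempty
  refine ⟨charDegree (χ : G → ℂ), fun ψ hψ h => ?_⟩
  obtain ⟨η, rfl⟩ := hm.exists_nilIrr_eq hn hχ h0 hψ
  rw [hm.blockHeight_nilIrr] at h
  obtain ⟨k, -, hk⟩ := (Nat.dvd_prime_pow hp.out).1 (hm.card_grp ▸ η.2.charDegree_dvd_card)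
  rw [hk, Nat.factorization_pow_self hp.out] at h
  rw [hm.charDegree_nilIrr, hk, h, pow_zero, one_mul]

end Cfsg.Lib.Block
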