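import Cfsg.Agent.Lib.Modular.DualSys
import Cfsg.Agent.Lib.Modular.RealTwo
import Cfsg.Agent.Lib.CharDeg.PrincSolv

/-!
# Bounds for the number of height zero characters from an arbitrary subsection
-/

set_option autoImplicit false
set_option linter.unusedSectionVars false

namespace Cfsg.Lib.Block

open _root_.Cfsg.Lib.Block Cfsg.Lib.Modular Cfsg.Lib.Char Cfsg.Lib.Cyc Finset Subgroup
open scoped ComplexConjugate

variable {G : Type*} [Group G] [Fintype G] {p : ℕ} {B : Set (IrrCharacter G)} {μ t : ℤ}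
variable [hp : Fact p.Prime] {M : Ideal AlgInt} [Modular p M]

theorem mul_card_height_zero_le {x : G} [Fintype (centralizer ({x} : Set G))]
    {b : Set (IrrCharacter (centralizer ({x} : Set G)))} (hb : HasDual p b μ t)
    (hx : ∃ k : ℕ, orderOf x = p ^ k) (h : IsInducedBlock M _ b B) :
    μ * Nat.card {χ : IrrCharacter G // χ ∈ B ∧ blockHeight p B (χ : G → ℂ) = 0} ≤ t := by
  classical
  obtain ⟨N, Ψ, h1, h2, h3, h4⟩ := hb
  have key : ∀ θ (m : ℤ), GSpan b θ →
      ∑ i ∈ range N, regInner p θ (Ψ i) * conj (regInner p θ (Ψ i)) = m →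
      ∃ v : ℕ → ℤ, (∀ i, regInner p θ (Ψ i) = v i) ∧ m = ∑ i ∈ range N, v i ^ 2 :=
    fun θ m hθ e => by
      choose v hv using h2 θ hθ
      simp only [hv, map_intCast, ← sq] at e
      exact ⟨v, hv, by exact_mod_cast e.symm⟩
  have hH : LatForm p b
      (fun f g => ∑ i ∈ range N, regInner p f (Ψ i) * conj (regInner p g (Ψ i))) μ :=
    { add := fun f g h => by simp only [regInner_add_left, add_mul, sum_add_distrib]
      smul := fun c f h => by simp only [regInner_smul_left, mul_sum, mul_assoc]
      symm := fun f g => by simp only [map_sum, map_mul, Complex.conj_conj, mul_comm]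
      int := fun θ φ hθ hφ => by
        choose v hv using h2 θ hθ
        choose w hw using h2 φ hφ
        exact ⟨∑ i ∈ range N, v i * w i, by simp [hv, hw]⟩
      nonneg := fun θ m hθ e => by
        obtain ⟨v, -, rfl⟩ := key θ m hθ e
        exact sum_nonneg fun _ _ => sq_nonneg _
      min := fun θ m hθ h0 e => by
        obtain ⟨v, hv, rfl⟩ := key θ m hθ e
        exact h3 θ hθ h0 v hv }
  rw [Nat.card_eq_fintype_card, Fintype.card_subtype]
  refine hH.mul_card_le hx (fun χ hχ => (mem_filter.1 hχ).2.1)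
    (fun χ hχ => exists_apply_ne_zero_of_height_zero hx h (mem_filter.1 hχ).2.1
      (mem_filter.1 hχ).2.2) ?_
  rw [← h4, sum_comm]
  refine sum_congr rfl fun i _ => ?_
  rw [← sum_regInner_secRes hx h (h1 i).2 (h1 i).1]
  refine sum_congr rfl fun χ _ => ?_
  rw [regInner_blockPart_left h.1 (isClassFunction_secRes x χ.2.isClassFunction) (h1 i).1 (h1 i).2,
    conj_regInner, mul_comm]

theorem hasDual_of_defect_zero (hB : IsPBlock M B) (h : blockDefect p B = 0) : HasDual p B 1 1 := by
  classical
  obtain ⟨η, hη⟩ := hB.nonempty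
  have h1 := hB.eq_singleton_of_defect_zero hη h
  have h2 : ∀ g, p ∣ orderOf g → (η : G → ℂ) g = 0 := fun g hg =>
    apply_eq_zero_of_defect_zero (M := M) η.2 ((hB.blockDefect_eq_zero_iff_mem hη).1 h) hg
  have h3 : ∀ f : G → ℂ, regInner p f (η : G → ℂ) = classInner f (η : G → ℂ) := fun f =>
    regInner_eq_classInner_right f h2
  refine ⟨1, fun _ => (η : G → ℂ), fun _ => ⟨η.2.isClassFunction, inSpan_of_mem hη⟩,
    fun θ hθ _ => ?_, fun θ hθ h0 v hv => ?_, ?_⟩
  · beta_reduce
    rw [h3]
    exact hθ.gen.exists_inner_eq_int η.2.isGeneralizedCharacter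
  · have h4 : regInner p θ (η : G → ℂ) = v 0 := hv 0
    have h5 : v 0 ≠ 0 := fun e => h0 (funext fun g => by
      rw [h3, e, Int.cast_zero] at h4
      by_cases hg : p ∣ orderOf g
      · exact pRegularPart_of_dvd _ hg
      · rw [pRegularPart_of_not_dvd _ hg, hθ.span.apply_eq_sum hθ.cls]
        refine sum_eq_zero fun χ hχ => ?_
        have h5 : χ = η := by
          have := (mem_filter.1 hχ).2
          rwa [h1] at this
        rw [h5, h4, zero_mul])
    rw [sum_range_one]
    have := sq_pos_of_ne_zero h5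
    omega
  · rw [sum_range_one, h3, η.2.inner_self, Int.cast_one]

/-- `k₀(B) ≤ #D` when some subsection has a defect group `D` that is cyclic modulo the element. -/
theorem card_height_zero_le {x : G} {b : Set (IrrCharacter (centralizer ({x} : Set G)))}
    (hx : ∃ k : ℕ, orderOf x = p ^ k) (h : IsInducedBlock M _ b B)
    {D : Subgroup (centralizer ({x} : Set G))} (hD : IsDefectGroup p M b D)
    (hc : IsCyclic (D.map (QuotientGroup.mk' (zpowers (selfC x))))) :
    Nat.card {χ : IrrCharacter G // χ ∈ B ∧ blockHeight p B (χ : G → ℂ) = 0} ≤ Nat.card D := by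
  classical
  have hZ : IsPGroup p (zpowers (selfC x)) := isPGroup_zpowers hp.out (by rwa [orderOf_selfC])
  have hZc : zpowers (selfC x) ≤ center _ := zpowers_le.2 (selfC_mem_center x)
  obtain ⟨h3, h4, -, h6⟩ := quotient_block h.1 hD (h.1.le_defectGroup_of_normal hD hZ) hZc
  have := Fintype.ofFinite (centralizer ({x} : Set G) ⧸ zpowers (selfC x))
  rw [← h6]
  rcases eq_or_ne (D.map (QuotientGroup.mk' (zpowers (selfC x)))) ⊥ with h9 | h9
  · have h11 := mul_card_height_zero_le (((hasDual_of_defect_zero h3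
      ((h3.blockDefect_eq_zero_iff h4).2 h9))).of_quotient h.1 hZ hZc) hx h
    rw [h9, Subgroup.card_bot]
    rw [one_mul] at h11
    exact_mod_cast h11
  obtain ⟨e, F, X, Ξ, δ, c, h10⟩ := exists_dade_of_isDefectGroup h3 h4 hc h9
  have h11 := mul_card_height_zero_le ((hasDual_of_dade h10).of_quotient h.1 hZ hZc) hx h
  rw [mul_left_comm, mul_le_mul_iff_right₀ two_pos] at h11
  exact le_trans (by exact_mod_cast h11) (Nat.mul_le_mul_left _ (card_le_of_isCyclic h3 h4 hc))

omit [Fintype G] in
theorem card_principal_p_prime_le [Finite G] {x : G} (hx : ∃ k : ℕ, orderOf x = p ^ k)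
    (h : (Nat.card (centralizer ({x} : Set G))).factorization p ≤ 2) :
    Nat.card {χ : IrrCharacter G // χ ∈ principalBlock M G ∧ ¬ p ∣ charDegree (χ : G → ℂ)} ≤
      p ^ 2 := by
  classical
  have := Fintype.ofFinite G
  have hM : IsPModular p M := Modular.out
  rcases eq_or_ne x 1 with rfl | h1
  · have e : centralizer ({1} : Set G) = ⊤ := by
      ext g
      simp [mem_centralizer_singleton_iff]
    rw [e, card_top, ← blockDefect_principalBlock (M := M) p] at h
    refine le_trans ?_ ((card_le_pow_of_defect_le_two isPBlock_principalBlock h).trans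
      (Nat.pow_le_pow_right hp.out.pos h))
    exact Nat.card_le_card_of_injective (fun χ => ⟨χ.1, χ.2.1⟩) fun a b e =>
      Subtype.ext (congrArg (fun c => c.1) e)
  obtain ⟨P⟩ : Nonempty (Sylow p (centralizer ({x} : Set G))) := inferInstance
  have hD : IsDefectGroup p M (principalBlock M _) (P : Subgroup (centralizer ({x} : Set G))) :=
    isDefectGroup_principal_iff.2 ⟨P, rfl⟩
  have hP : Nat.card P ≤ p ^ 2 := by
    rw [P.card_eq_multiplicity]
    exact Nat.pow_le_pow_right hp.out.pos h
  have hI := isInducedBlock_principal_centralizer hM hx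
  have hZ : IsPGroup p (zpowers (selfC x)) := isPGroup_zpowers hp.out (by rwa [orderOf_selfC])
  obtain ⟨-, h4, -, h6⟩ := quotient_block hI.1 hD (hI.1.le_defectGroup_of_normal hD hZ)
    (zpowers_le.2 (selfC_mem_center x))
  simp only [← Cfsg.Lib.CharDeg.blockHeight_principalBlock_eq_zero_iff hM]
  refine (card_height_zero_le hx hI hD ?_).trans hP
  obtain ⟨k, hk⟩ := hx
  obtain ⟨j, hj⟩ := IsPGroup.iff_card.1 h4.isPGroup
  rw [Nat.card_zpowers, orderOf_selfC, hk, hj, ← pow_add] at h6
  rw [← h6, Nat.pow_le_pow_iff_right hp.out.one_lt] at hP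
  have hk0 : k ≠ 0 := by
    rintro rfl
    exact h1 (orderOf_eq_one_iff.1 hk)
  obtain rfl | rfl : j = 0 ∨ j = 1 := by omega
  · rw [pow_zero] at hj
    rw [Subgroup.card_eq_one.1 hj]
    infer_instance
  · exact isCyclic_of_prime_card (hj.trans (pow_one p))

end Cfsg.Lib.Block
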