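import Cfsg.Agent.Lib.Sym.Block
import Cfsg.Agent.Lib.Clifford.Degree
import Cfsg.Agent.Lib.Frobenius.Compl

/-!
# Invariant characters of normal subgroups with at most two characters above them
-/

set_option autoImplicit false
set_option linter.unusedSectionVars false

namespace Cfsg.Lib.Block
open _root_.Cfsg.Lib.Block MonoidAlgebra Cfsg.Lib.Char Cfsg.Lib.Modular Cfsg.Lib.Clifford Finset
  Cfsg.Lib.Induce
open scoped ComplexConjugate

universe u

theorem exists_cover_exp {G : Type u} [Group G] [Finite G] (N : Subgroup G) [hN : N.Normal]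
    {θ : N → ℂ} (hθ : IsIrrCharacter N θ)
    (hinv : ∀ (g : G) (n : N), θ ⟨g * n * g⁻¹, hN.conj_mem (n : G) n.2 g⟩ = θ n)
    {P : Subgroup G} (hNP : N ≤ P) {η : P → ℂ} (hη : IsCharacter P η)
    (he : ∀ n : N, η ⟨n, hNP n.2⟩ = θ n) :
    ∃ (Γ : Type u) (_ : Group Γ) (_ : Finite Γ) (π : Γ →* G) (ι : N →* Γ) (χ : Γ → ℂ),
      Function.Surjective π ∧ π.ker ≤ Subgroup.center Γ ∧ (∀ n : N, π (ι n) = n) ∧
      ι.range.Normal ∧ IsIrrCharacter Γ χ ∧ (∀ n : N, χ (ι n) = θ n) ∧
      ∀ z ∈ π.ker, z ^ P.index = 1 := by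
  obtain ⟨d, ρ, hρ, rfl⟩ := hθ
  have := nontrivial_of_isIrreducible ρ
  have hs := coverFst_surjective N ρ hinv
  obtain ⟨σ', -, hσ'⟩ := exists_rep_extension_of_character N ρ (Subgroup.inclusion hNP) hη he
  obtain ⟨t, ht1, ht2⟩ := (hasExpOn_one_of_extension hNP σ' hσ').hasExp hs
  rw [one_mul] at ht2
  have hm : P.index ≠ 0 := Subgroup.index_ne_zero_of_finite
  let π : t.ker →* G := (coverFst N ρ).comp t.ker.subtype
  let ι : N →* t.ker := (coverInl N ρ).codRestrict _ ht1
  let σ : Representation ℂ t.ker (Fin d → ℂ) := (coverRep N ρ).comp t.ker.subtype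
  have hker : ∀ z ∈ π.ker, ∃ c : ℂˣ, c ^ P.index = 1 ∧ (z : cover N ρ) = coverScalar N ρ c := by
    intro z hz
    obtain ⟨c, hc⟩ := exists_scalar_of_fst_eq_one N ρ (x := z) hz
    exact ⟨c, by rw [← ht2, ← hc]; exact z.2, hc⟩
  have hfin : Finite π.ker := by
    have : NeZero P.index := ⟨hm⟩
    choose c hc1 hc2 using fun z : π.ker => hker z z.2
    refine Finite.of_injective (fun z => (⟨c z, hc1 z⟩ : rootsOfUnity P.index ℂ)) fun a b h => ?_
    have h' : c a = c b := congrArg Subtype.val h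
    exact Subtype.ext (Subtype.ext (by rw [hc2, hc2, h']))
  have hΓ : Finite t.ker := by
    have : Finite (t.ker ⧸ π.ker) :=
      Finite.of_injective _ (QuotientGroup.kerLift_injective π)
    exact Finite.of_subgroup_quotient π.ker
  have hσ : ∀ n : N, σ.character (ι n) = ρ.character n := fun n =>
    congrArg (LinearMap.trace ℂ _) (coverRep_inl N ρ n)
  refine ⟨t.ker, inferInstance, hΓ, π, ι, σ.character, fun g => ?_, fun z hz => ?_, fun n => rfl,
    ⟨?_⟩, ?_, hσ, fun z hz => ?_⟩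
  · obtain ⟨x, rfl⟩ := hs g
    obtain ⟨c, hc⟩ := Cfsg.Lib.Schur.complex_units_divisible _ hm (t x)⁻¹
    refine ⟨⟨x * coverScalar N ρ c, ?_⟩, ?_⟩
    · rw [MonoidHom.mem_ker, map_mul, ht2, hc, mul_inv_cancel]
    · exact (map_mul (coverFst N ρ) _ _).trans (mul_one _)
  · rw [Subgroup.mem_center_iff]
    exact fun x => Subtype.ext (Subgroup.mem_center_iff.1 (ker_coverFst_le_center N ρ hz) x)
  · rintro _ ⟨n, rfl⟩ x
    exact ⟨_, (Subtype.ext (conj_coverInl N ρ x n)).symm⟩
  · exact isIrrCharacter_of_comp ι (isCharacter_character σ)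
      (by rw [funext hσ]; exact isIrrCharacter_character ρ)
  · obtain ⟨c, h1, h2⟩ := hker z hz
    exact Subtype.ext (by rw [SubmonoidClass.coe_pow, h2, ← map_pow, h1, map_one]; rfl)

theorem invariant_of_le_center {Y : Type*} [Group Y] {Z : Subgroup Y} [hZ : Z.Normal]
    (h : Z ≤ Subgroup.center Y) (μ : Z → ℂ) (g : Y) (n : Z) :
    μ ⟨g * n * g⁻¹, hZ.conj_mem (n : Y) n.2 g⟩ = μ n :=
  congrArg μ (Subtype.ext (by
    change g * n * g⁻¹ = n
    rw [Subgroup.mem_center_iff.1 (h n.2) g, mul_inv_cancel_right]))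

/-- Reduction of a character triple to a central subgroup of controlled exponent. -/
theorem exists_central {G : Type u} [Group G] [Finite G] (N : Subgroup G) [hN : N.Normal]
    (θ : IrrCharacter N)
    (hinv : ∀ (g : G) (n : N), θ.1 ⟨g * n * g⁻¹, hN.conj_mem (n : G) n.2 g⟩ = θ.1 n)
    {P : Subgroup G} (hNP : N ≤ P) {η : P → ℂ} (hη : IsCharacter P η)
    (he : ∀ n : N, η ⟨n, hNP n.2⟩ = θ.1 n) :
    ∃ (Y : Type u) (_ : Group Y) (_ : Finite Y) (f : Y →* G ⧸ N) (μ : IrrCharacter f.ker),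
      Function.Surjective f ∧ f.ker ≤ Subgroup.center Y ∧ (∀ z ∈ f.ker, z ^ P.index = 1) ∧
      Nat.card {β : IrrCharacter Y // Over f.ker.subtype β.1 {μ}} ≤
        Nat.card {χ : IrrCharacter G // Over N.subtype χ.1 {θ}} := by
  obtain ⟨Γ, _, _, π, ι, χ, hs, hc, h1, hn, hχ, h2, h3⟩ := exists_cover_exp N θ.2 hinv hNP hη he
  have hι : Function.Injective ι := fun a b e => Subtype.ext (by rw [← h1, e, h1])
  have hχM : IsIrrCharacter ι.range fun m => χ m := by
    convert θ.2.comp_equiv (MonoidHom.ofInjective hι).symm with m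
    rw [← h2, MonoidHom.apply_ofInjective_symm]
  let f : Γ ⧸ ι.range →* G ⧸ N :=
    QuotientGroup.map _ _ π (by rintro _ ⟨n, rfl⟩; rw [Subgroup.mem_comap, h1]; exact n.2)
  have hk : ∀ y ∈ f.ker, ∃ z ∈ π.ker, (z : Γ ⧸ ι.range) = y := fun y hy => by
    obtain ⟨x, rfl⟩ := QuotientGroup.mk_surjective y
    have hx : π x ∈ N := (QuotientGroup.eq_one_iff _).1 hy
    refine ⟨x * (ι ⟨_, hx⟩)⁻¹, by simp [MonoidHom.mem_ker, h1], ?_⟩
    exact QuotientGroup.mk_mul_of_mem x (inv_mem ⟨_, rfl⟩)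
  have hk' : ∀ z ∈ π.ker, (z : Γ ⧸ ι.range) ∈ f.ker := fun z hz => by
    change ((π z : G) : G ⧸ N) = 1
    rw [MonoidHom.mem_ker.1 hz, QuotientGroup.mk_one]
  have hcen : f.ker ≤ Subgroup.center _ := fun y hy => by
    obtain ⟨z, hz, rfl⟩ := hk y hy
    refine Subgroup.mem_center_iff.2 fun x => ?_
    obtain ⟨x, rfl⟩ := QuotientGroup.mk_surjective x
    rw [← QuotientGroup.mk_mul, ← QuotientGroup.mk_mul, Subgroup.mem_center_iff.1 (hc hz)]
  have := Fintype.ofFinite N
  have := Fintype.ofFinite ι.range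
  have := Fintype.ofFinite f.ker
  have := Fintype.ofFinite (Γ ⧸ ι.range)
  have := Fintype.ofFinite G
  obtain ⟨χ₀, hχ₀⟩ := exists_over N.subtype_injective θ
  obtain ⟨β₀, hβ₀, e₀⟩ := exists_inflate_mul_eq_of_over ι.range hχ.isCharacter hχM
    (χ₀.2.comp_surjective π hs) (by
      rw [← classInner_comp_surjective ι.rangeRestrict ι.rangeRestrict_surjective]
      simpa [h1, h2] using (over_subtype_iff χ₀ θ).1 hχ₀)
  obtain ⟨μ, hμ⟩ := exists_over_singleton f.ker.subtype hβ₀
  have h4 : ∀ β : IrrCharacter (Γ ⧸ ι.range), Over f.ker.subtype β.1 {μ} → ∀ z : f.ker,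
      β.1 z * μ.1 1 = β.1 1 * μ.1 z := fun β hβ z => by
    have := res_eq_smul_of_invariant f.ker β.2 μ.2 ((over_subtype_iff β μ).1 hβ)
      (invariant_of_le_center hcen _)
    have a1 := congrFun this z
    have a2 := congrFun this 1
    simp only [Pi.smul_apply, smul_eq_mul, OneMemClass.coe_one] at a1 a2
    rw [a1, a2]; ring
  have h5 : ∀ β : {β : IrrCharacter (Γ ⧸ ι.range) // Over f.ker.subtype β.1 {μ}},
      ∃ ψ : IrrCharacter G, infl π hs ψ =
        ⟨_, isIrrCharacter_inflate_mul ι.range hχ.isCharacter hχM β.1.2⟩ := fun β => by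
    rw [← Set.mem_range, range_infl]
    intro z hz
    have a1 := h4 β.1 β.2 ⟨_, hk' z hz⟩
    have a2 := h4 ⟨_, hβ₀⟩ hμ ⟨_, hk' z hz⟩
    have a3 := congrFun e₀ z
    have a4 := congrFun e₀ 1
    simp only [Pi.mul_apply, MonoidHom.mem_ker.1 hz, map_one, QuotientGroup.mk_one] at a1 a2 a3 a4 ⊢
    apply mul_left_cancel₀ (mul_ne_zero μ.2.apply_one_ne_zero hβ₀.apply_one_ne_zero)
    linear_combination (β₀ 1 * χ z) * a1 - (β.1.1 1 * χ z) * a2 + μ.1 1 * β.1.1 1 * (a4 - a3)
  choose F hF using h5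
  refine ⟨_, inferInstance, inferInstance, f, μ, fun y => ?_, hcen, fun y hy => ?_,
    Nat.card_le_card_of_injective (fun β => ⟨F β, ?_⟩) fun β γ e => ?_⟩
  · obtain ⟨g, rfl⟩ := QuotientGroup.mk_surjective y
    obtain ⟨x, rfl⟩ := hs g
    exact ⟨x, rfl⟩
  · obtain ⟨z, hz, rfl⟩ := hk y hy
    rw [← QuotientGroup.mk_pow, h3 z hz, QuotientGroup.mk_one]
  · have : (fun n : N => (F β).1 n) = β.1.1 1 • θ.1 := funext fun n => by
      have := congrFun (congrArg Subtype.val (hF β)) (ι n)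
      simp only [infl_apply, h1, Pi.mul_apply, h2] at this
      rw [this, (QuotientGroup.eq_one_iff _).2 (MonoidHom.mem_range.2 ⟨n, rfl⟩)]
      rfl
    rw [over_subtype_iff, this, classInner_smul_left, θ.2.inner_self, mul_one]
    exact β.1.2.apply_one_ne_zero
  · refine Subtype.ext (Subtype.ext
      (eq_of_inflate_mul_eq ι.range hχ.isCharacter hχM β.1.2 γ.1.2 ?_))
    exact congrArg Subtype.val ((hF β).symm.trans ((congrArg (infl π hs)
      (congrArg Subtype.val e)).trans (hF γ)))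

variable {G : Type u} [Group G] [Finite G] {N : Subgroup G} [hN : N.Normal] {θ : IrrCharacter N}

theorem exists_mult
    (hinv : ∀ (g : G) (n : N), θ.1 ⟨g * n * g⁻¹, hN.conj_mem (n : G) n.2 g⟩ = θ.1 n) :
    ∃ e : IrrCharacter G → ℕ, (∀ χ, e χ ≠ 0 ↔ Over N.subtype χ.1 {θ}) ∧
      (∀ χ, e χ ≠ 0 → e χ ∣ N.index ∧ charDegree χ.1 = e χ * charDegree θ.1) ∧
      ∑ χ, e χ ^ 2 = N.index := by
  have := Fintype.ofFinite N
  have := Fintype.ofFinite G
  have h : ∀ χ : IrrCharacter G, ∃ e : ℕ, classInner (fun n : N => χ.1 n) θ.1 = e ∧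
      (e ≠ 0 → (fun n : N => χ.1 n) = (e : ℂ) • θ.1) := fun χ => by
    by_cases h : classInner (fun n : N => χ.1 n) θ.1 = 0
    · exact ⟨0, by simpa using h, fun h => absurd rfl h⟩
    · obtain ⟨e, -, h1, h2⟩ := exists_res_eq_smul_of_invariant N χ.2 θ.2 h hinv
      exact ⟨e, h1, fun _ => h2⟩
  choose e h1 h2 using h
  refine ⟨e, fun χ => by rw [over_subtype_iff, h1, Nat.cast_ne_zero], fun χ h =>
    ⟨dvd_index_of_res_eq_smul N χ.2 θ.2 (h2 χ h), ?_⟩, ?_⟩
  · have := congrFun (h2 χ h) 1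
    simp only [Pi.smul_apply, smul_eq_mul, OneMemClass.coe_one, χ.2.apply_one_eq,
      θ.2.apply_one_eq] at this
    exact_mod_cast this
  · have := sum_sq_classInner_res N θ.2
    rw [relIndex_inertia_of_invariant N hinv] at this
    simp only [h1] at this
    exact_mod_cast this

theorem even_index_of_two
    (hinv : ∀ (g : G) (n : N), θ.1 ⟨g * n * g⁻¹, hN.conj_mem (n : G) n.2 g⟩ = θ.1 n)
    (h : Nat.card {χ : IrrCharacter G // Over N.subtype χ.1 {θ}} = 2) : Even N.index := by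
  classical
  obtain ⟨e, h1, h2, h3⟩ := exists_mult hinv
  by_contra ho
  rw [Nat.card_eq_fintype_card, Fintype.card_subtype] at h
  refine ho (ZMod.natCast_eq_zero_iff_even.1 ?_)
  rw [← h3, ← sum_filter_add_sum_filter_not _ fun χ => Over N.subtype χ.1 {θ},
    sum_eq_zero (s := filter (fun χ => ¬ _) _) fun χ hχ => by
      rw [not_not.1 fun h => (mem_filter.1 hχ).2 ((h1 χ).1 h)]; rfl, add_zero, Nat.cast_sum,
    sum_congr rfl (g := fun _ => 1) fun χ hχ => ?_, sum_const, h]
  · rfl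
  · rw [Nat.cast_pow, ZMod.natCast_eq_one_iff_odd.2 ((Nat.not_even_iff_odd.1 ho).of_dvd_nat
      (h2 χ ((h1 χ).2 (mem_filter.1 hχ).2)).1), one_pow]

theorem not_dvd_index_of_two
    (hinv : ∀ (g : G) (n : N), θ.1 ⟨g * n * g⁻¹, hN.conj_mem (n : G) n.2 g⟩ = θ.1 n)
    (h : Nat.card {χ : IrrCharacter G // Over N.subtype χ.1 {θ}} ≤ 2) {l : ℕ} [hl : Fact l.Prime]
    (h2 : l ≠ 2) (R : Sylow l (G ⧸ N)) (hR : IsCyclic R) : ¬ l ∣ N.index := by
  classical
  intro hd
  let P := (R : Subgroup (G ⧸ N)).comap (QuotientGroup.mk' N)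
  have hNP : N ≤ P := fun n hn => by
    change (n : G ⧸ N) ∈ (R : Subgroup (G ⧸ N))
    rw [(QuotientGroup.eq_one_iff n).2 hn]; exact one_mem _
  have hi : ¬ l ∣ P.index := by
    rw [Subgroup.index_comap_of_surjective _ (QuotientGroup.mk'_surjective N)]
    exact R.not_dvd_index
  obtain ⟨η, hη, he⟩ := exists_extension_of_isCyclic (N.subgroupOf P)
    (θ := fun n => θ.1 (Subgroup.subgroupOfEquivOfLe hNP n)) (by
      let g := (QuotientGroup.mk' N).subgroupComap (R : Subgroup (G ⧸ N))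
      have e : g.ker = N.subgroupOf P := by
        ext x
        exact Subtype.ext_iff.trans (QuotientGroup.eq_one_iff (x : G))
      exact isCyclic_of_injective ((QuotientGroup.kerLift g).comp
        (QuotientGroup.quotientMulEquivOfEq e.symm).toMonoidHom)
        ((QuotientGroup.kerLift_injective g).comp (MulEquiv.injective _)))
    (θ.2.comp_equiv _) fun g n => hinv g (Subgroup.subgroupOfEquivOfLe hNP n)
  obtain ⟨Y, _, _, f, μ, hf, hc, hz, hle⟩ := exists_central N θ hinv hNP hη.isCharacter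
    fun n => he ⟨⟨n, hNP n.2⟩, n.2⟩
  obtain ⟨M, hM⟩ := exists_isPModular hl.out
  have : Modular l M := ⟨hM⟩
  have := Fintype.ofFinite Y
  have hZ : ¬ l ∣ Nat.card f.ker := fun h => by
    obtain ⟨z, hz'⟩ := exists_prime_orderOf_dvd_card' l h
    exact hi (hz' ▸ orderOf_dvd_of_pow_eq_one (Subtype.ext (hz z z.2)))
  obtain ⟨e, h1, h3, h4⟩ := exists_mult (θ := μ) (invariant_of_le_center hc _)
  have h5 : ∀ β, l ^ (Nat.card Y).factorization l ∣ e β := fun β => by
    by_cases h0 : e β = 0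
    · simp [h0]
    have hb := isPBlock_blockOf (M := M) β
    have h6 : Nat.card (blockOf M β.1) ≤ 2 := (Nat.card_le_card_of_injective
      (fun γ => (⟨γ.1, ((h1 β).1 h0).of_sameBlock hZ γ.2⟩ :
        {β : IrrCharacter Y // Over f.ker.subtype β.1 {μ}}))
      fun a b e => Subtype.ext (by simpa using e)).trans (hle.trans h)
    have h7 : blockDefect l (blockOf M β.1) = 0 := by
      by_contra h7
      have a1 := blockRank_lt_card hb h7
      have a2 := blockRank_pos (p := l) hb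
      have a3 := Sym.card_eq_of_rank_one hb (by omega) (by omega)
      exact h2 ((Nat.prime_dvd_prime_iff_eq hl.out Nat.prime_two).1
        ((dvd_pow_self l h7).trans (by rw [← a3]; exact dvd_of_eq (by omega))))
    have h8 := (hb.blockDefect_eq_zero_iff_mem (mem_blockOf_self β)).1 h7
    refine ((Nat.Prime.coprime_iff_not_dvd hl.out).2 fun h =>
      hZ (h.trans μ.2.charDegree_dvd_card)).pow_left _ |>.dvd_of_dvd_mul_right ?_
    rw [← (h3 β h0).2, ← h8]
    exact Nat.ordProj_dvd _ _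
  have h6 : (l ^ (Nat.card Y).factorization l) ^ 2 ∣ Nat.card Y :=
    (h4 ▸ dvd_sum fun β _ => pow_dvd_pow_of_dvd (h5 β) 2).trans f.ker.index_dvd_card
  have h7 : l ∣ Nat.card Y := by
    refine Dvd.dvd.trans ?_ f.ker.index_dvd_card
    rwa [Subgroup.index_ker, MonoidHom.range_eq_top.2 hf, Subgroup.card_top]
  rw [← pow_mul, hl.out.pow_dvd_iff_le_factorization Nat.card_pos.ne'] at h6
  have := hl.out.factorization_pos_of_dvd Nat.card_pos.ne' h7
  omega

theorem index_eq_two_of_fpf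
    (hinv : ∀ (g : G) (n : N), θ.1 ⟨g * n * g⁻¹, hN.conj_mem (n : G) n.2 g⟩ = θ.1 n)
    (h : Nat.card {χ : IrrCharacter G // Over N.subtype χ.1 {θ}} = 2)
    (hF : Frobenius.Fpf (G ⧸ N)) : N.index = 2 := by
  classical
  obtain ⟨Y, _, _, f, μ, hf, hc, -, hle⟩ := exists_central N θ hinv le_rfl θ.2.isCharacter
    fun n => rfl
  have := Fintype.ofFinite Y
  have hi : f.ker.index = N.index := by
    rw [Subgroup.index_ker, MonoidHom.range_eq_top.2 hf, Subgroup.card_top]; rfl
  have h1 : ∀ a b : Y, f a * f b = f b * f a → a * b = b * a := fun a b hab => by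
    let H := Subgroup.closure {a, b}
    have hcyc : IsCyclic (H.map f) := hF.isCyclic_of_comm (by
      rw [MonoidHom.map_closure]
      exact Subgroup.isMulCommutative_closure (by
        rintro _ ⟨x, rfl | rfl, rfl⟩ _ ⟨y, rfl | rfl, rfl⟩ <;> simp [hab]))
    have := (f.subgroupMap H).isMulCommutative_of_isCyclic_of_ker_le_center fun x hx =>
      Subgroup.mem_center_iff.2 fun y => Subtype.ext
        (Subgroup.mem_center_iff.1 (hc (congrArg Subtype.val hx)) y)
    exact congrArg Subtype.val (this.is_comm.comm (⟨a, Subgroup.subset_closure (by simp)⟩ : H)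
      ⟨b, Subgroup.subset_closure (by simp)⟩)
  obtain ⟨t, ht⟩ := exists_prime_orderOf_dvd_card' (G := G ⧸ N) 2
    (even_iff_two_dvd.1 (even_index_of_two hinv h))
  obtain ⟨w, rfl⟩ := hf t
  have h2 : f.ker < Subgroup.center Y := lt_of_le_of_ne hc fun e => by
    have : w ∈ f.ker := e ▸ Subgroup.mem_center_iff.2 fun y => h1 _ _
      (hF.comm_of_mul_self (by rw [← sq, ← ht, pow_orderOf_eq_one]) _)
    simp [MonoidHom.mem_ker.1 this] at ht
  have h3 : 2 * Nat.card f.ker ≤ Nat.card (Subgroup.center Y) := by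
    obtain ⟨k, hk⟩ := Subgroup.card_dvd_of_le hc
    have : 2 ≤ k := by
      have a1 : k ≠ 1 := fun e => h2.ne (Subgroup.eq_of_le_of_card_ge hc (by rw [hk, e, mul_one]))
      have a2 : k ≠ 0 := fun e => Nat.card_pos.ne' (by rw [hk, e, mul_zero])
      omega
    rw [hk, mul_comm]
    exact Nat.mul_le_mul_left _ this
  obtain ⟨e, h4, h5, h6⟩ := exists_mult (θ := μ) (invariant_of_le_center hc _)
  let S := {β : IrrCharacter Y | Over f.ker.subtype β.1 {μ}}
  have h7 : emb f.ker.subtype (fblk {μ}) = fblk S := emb_fblk_eq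
    (mem_fix_of_supp_centralizer (supp_mono
      (show f.ker ≤ Subgroup.centralizer ((⊤ : Subgroup Y) : Set Y) from fun z hz y _ =>
      Subgroup.mem_center_iff.1 (hc hz) y) (fbl_mem_cen _).2))
  have h8 : ∀ y : Y, ∑ χ with χ ∈ S, χ.1 y * conj (χ.1 y) =
      (fblk S).coeff 1 * #{x | y * x = x * y} := fun y => by
    rw [← sum_coeff_fblk_conj, card_filter, Nat.cast_sum, mul_sum]
    refine sum_congr rfl fun x _ => ?_
    split_ifs with hx
    · rw [← mul_assoc, ← mul_assoc, hx]; simp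
    · rw [Nat.cast_zero, mul_zero]
      by_contra h0
      rw [← h7] at h0
      have := mem_of_coeff_ne_zero (fbl_mem_cen {μ}).2 h0
      refine hx (h1 _ _ ?_)
      rw [MonoidHom.mem_ker] at this
      simp only [map_mul, map_inv] at this
      rw [← mul_inv_eq_one, ← this]; group
  have h9 : (fblk S).coeff 1 * Nat.card f.ker = 1 := by
    have a1 := h8 1
    have a2 : charDegree μ.1 = 1 := Nat.dvd_one.1 (by
      simpa using charDegree_dvd_index_of_comm (⊤ : Subgroup f.ker) μ.2 fun a _ b _ =>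
        Subtype.ext (Subgroup.mem_center_iff.1 (hc b.2) a))
    rw [sum_congr rfl (g := fun χ => ((e χ ^ 2 : ℕ) : ℂ)) fun χ hχ => by
      rw [χ.2.apply_one_eq, (h5 χ ((h4 χ).2 (mem_filter.1 hχ).2)).2, a2]; simp [sq],
      ← Nat.cast_sum, sum_subset (filter_subset _ _) fun χ _ hχ => by
        rw [not_not.1 fun h => hχ (mem_filter.2 ⟨mem_univ _, (h4 χ).1 h⟩)]; rfl, h6] at a1
    simp only [one_mul, mul_one, filter_true, card_univ, ← Nat.card_eq_fintype_card] at a1
    rw [← f.ker.card_mul_index, Nat.cast_mul, ← mul_assoc] at a1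
    exact (mul_eq_right₀ (Nat.cast_ne_zero.2 Subgroup.index_ne_zero_of_finite)).1 a1.symm
  have h10 : #{χ | χ ∈ S} * Nat.card Y * Nat.card f.ker = ∑ y : Y, #{x | y * x = x * y} := by
    apply Nat.cast_injective (R := ℂ)
    have := sum_congr (s₁ := univ) rfl fun y _ => h8 y
    rw [sum_comm, sum_congr rfl (g := fun _ => (Nat.card Y : ℂ)) fun χ _ => by
      have := χ.2.inner_self
      rw [classInner_def, inv_mul_eq_one₀ (card_ne_zero_complex Y)] at this
      exact this.symm, ← mul_sum, sum_const, nsmul_eq_mul] at this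
    push_cast
    rw [this, mul_right_comm, h9, one_mul]
  have h11 : #{χ | χ ∈ S} ≤ 2 := by
    rw [h, Nat.card_eq_fintype_card, Fintype.card_subtype] at hle
    exact hle
  have h12 : Nat.card (Subgroup.center Y) * Nat.card Y + #{y | y ∉ Subgroup.center Y} ≤
      ∑ y : Y, #{x | y * x = x * y} := by
    rw [← sum_filter_add_sum_filter_not _ (· ∈ Subgroup.center Y), card_eq_sum_ones,
      Nat.card_eq_fintype_card (α := Subgroup.center Y), Fintype.card_subtype, ← smul_eq_mul,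
      ← sum_const]
    refine add_le_add (sum_le_sum fun y hy => ?_) (sum_le_sum fun y _ => card_pos.2 ⟨1, by simp⟩)
    rw [filter_true_of_mem fun x _ => (Subgroup.mem_center_iff.1 (mem_filter.1 hy).2 x).symm,
      card_univ, Nat.card_eq_fintype_card]
  have h13 := Nat.mul_le_mul_right (Nat.card Y * Nat.card f.ker) h11
  have h14 := Nat.mul_le_mul_right (Nat.card Y) h3
  have h15 : #{y | y ∉ Subgroup.center Y} = 0 := by nlinarith
  have h16 : Subgroup.center Y = ⊤ := eq_top_iff.2 fun y _ => by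
    by_contra hy
    exact notMem_empty y (card_eq_zero.1 h15 ▸ mem_filter.2 ⟨mem_univ _, hy⟩)
  have h18 : Nat.card (Subgroup.center Y) = Nat.card Y := by rw [h16, Subgroup.card_top]
  rw [h18] at h3 h12
  have h17 : Nat.card Y ≤ 2 * Nat.card f.ker :=
    Nat.le_of_mul_le_mul_right (c := Nat.card Y) (by nlinarith) Nat.card_pos
  rw [← hi]
  exact Nat.eq_of_mul_eq_mul_left (Nat.card_pos (α := f.ker))
    (by rw [f.ker.card_mul_index]; omega)

end Cfsg.Lib.Block
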